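import Mathlib
import Cfsg.Agent.SIG.GoodComm
import Cfsg.Agent.SIG.PumpUp
import Cfsg.Agent.S0205

/-! Cores of centralizers of `p`-subgroups acting on `p`-components, and Goldschmidt's functor for a
core-separated pair. -/

set_option autoImplicit false

open Cfsg CL.BG Subgroup CL.PComp
open scoped commutatorElement

namespace CL.GG

variable {G : Type*} [Group G] [Finite G] {p : ℕ} [hp : Fact p.Prime] {H P E T : Subgroup G}

omit hp in
theorem opOf_inf_cent_eq (hPH : P ≤ H) :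
    opOf p (H ⊓ 𝐂(P)) = (opOf p 𝐂(P.subgroupOf H)).map H.subtype := by
  rw [← opOf_map_subtype, CL.Comp.map_centralizer_subtype, subgroupOf_map_subtype,
    inf_eq_left.mpr hPH]

theorem opOf_local_le_norm (hE : IsPComponentOf p E H) (hP : IsPGroup p P) (hPH : P ≤ H) :
    opOf p (H ⊓ 𝐂(P)) ≤ 𝐍(E) := by
  have h := le_sup_right.trans (local_le_normalizer_pComponent (hP.comap_subtype (K := H)) hE.2)
  have h2 := CL.map_le_normalizer_map H.subtype h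
  rw [map_subgroupOf_eq_of_le hE.le] at h2
  rw [opOf_inf_cent_eq hPH]
  exact h2

theorem le_opOf_of_le_cbar (hP : IsPGroup p P) (hPH : P ≤ H) (hT : T ≤ opOf p (H ⊓ 𝐂(P)))
    (h : ∀ E, IsPComponentOf p E H → T ≤ cbar p E) : T ≤ opOf p H := by
  have hTH : T ≤ H := hT.trans ((opOf_le p _).trans inf_le_left)
  refine le_opOf_of_map_eq_bot hTH (eq_bot_of_centralizes_fstar (pPrimeCore_quotient p)
    (coprime_card_map _ (by
      rw [CL.card_subgroupOf_of_le hTH]; exact coprime_card_of_le hT (opOf_coprime p _))) ?_ ?_)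
  · refine le_trans (map_mono (le_sup_of_le_right ?_))
      (local_map_le_centralizer_pCore (hP.comap_subtype (K := H)))
    rw [opOf_inf_cent_eq hPH] at hT
    intro x hx
    obtain ⟨y, hy, e⟩ := hT hx
    rwa [← H.subtype_injective e]
  · intro L hL
    obtain ⟨K, hK, rfl⟩ := exists_isPComponent_mk' hL
    have hK' : IsPComponentOf p (K.map H.subtype) H := isPComponentOf_map_subtype.2 hK
    have h1 := (le_cbar_iff.1 (h _ hK')).trans hK'.opOf_le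
    rw [← comm_eq_bot_iff, ← map_commutator, CL.map_mk'_eq_bot_iff, commutator_comm]
    refine commutator_le.2 fun k hk t ht => (mem_opOf _).1 (h1 ?_)
    exact commutator_mem_commutator (mem_map_of_mem H.subtype hk) ht

theorem opOf_local_le_cbar (hE : IsPComponentOf p E H) (hP : IsPGroup p P) (hPH : P ≤ H)
    (h : P ≤ cbar p E) : opOf p (H ⊓ 𝐂(P)) ≤ cbar p E := by
  have hHO : H ≤ 𝐍(opOf p H) := le_normalizer_opOf p H
  have h1 : E ≤ (H ⊓ 𝐂(P)) ⊔ opOf p H := by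
    have := CL.coprime_eq_centralizer_sup_of_commutator_le P (E ⊔ opOf p H) (opOf p H) le_sup_right
      (hPH.trans hHO) (CL.coprime_card_of_isPGroup hP (opOf_coprime p H)).symm
      (Or.inl (CL.isSolvable_of_isPGroup hP))
      (comm_sup_le ((le_cbar_iff.1 h).trans hE.opOf_le)
        (CL.MSS.commutator_le_left_of_normalizes (hPH.trans hHO)) (hE.le.trans hHO) le_normalizer)
    exact le_sup_left.trans (this.ge.trans
      (sup_le_sup_right (inf_le_inf_right _ (sup_le hE.le (opOf_le p H))) _))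
  have hN : opOf p (H ⊓ 𝐂(P)) ≤ H := (opOf_le p _).trans inf_le_left
  have h2 : E ≤ 𝐍(opOf p (H ⊓ 𝐂(P)) ⊔ opOf p H) := by
    refine h1.trans (sup_le (CL.le_normalizer_sup (le_normalizer_opOf p _)
      (inf_le_left.trans hHO)) (le_norm_of_le le_sup_right))
  exact le_sup_left.trans (le_cbar_iff.2 (hE.commutator_le_of_coprime (sup_le hN (opOf_le p H)) h2
    (coprime_card_sup (hN.trans hHO) (opOf_coprime p _) (opOf_coprime p _))))

omit hp in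
theorem opOf_inf_le_local {K : Subgroup G} : opOf p K ⊓ H ≤ opOf p (H ⊓ K) :=
  (le_inf inf_le_left (le_inf inf_le_right (inf_le_left.trans (opOf_le p K)))).trans
    (inf_le_opOf (inf_le_right.trans (le_normalizer_opOf p K)) (opOf_coprime p K))

section Sep

variable {A A₁ A₂ : Subgroup G}

/-- One half of Goldschmidt's functor. -/
def sepTheta (A₁ : Subgroup G) (a : G) : Subgroup G :=
  ⁅opOf 2 𝐂₁(a), A₁⁆ ⊔ (opOf 2 𝐂₁(a) ⊓ opOf 2 𝐂(A₁))

theorem le_norm_core (hA : IsElementaryAbelian p A) {a : G} (ha : a ∈ A) :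
    A ≤ 𝐍(opOf p 𝐂₁(a)) :=
  ((le_cent_of_abelian hA.1).trans (cent_le_cent1 ha)).trans (le_normalizer_opOf p _)

theorem sepTheta_le (hA : IsElementaryAbelian 2 A) (h1 : A₁ ≤ A) {a : G} (ha : a ∈ A) :
    sepTheta A₁ a ≤ opOf 2 𝐂₁(a) :=
  sup_le (CL.MSS.commutator_le_left_of_normalizes (h1.trans (le_norm_core hA ha))) inf_le_left

theorem le_norm_sepTheta (hA : IsElementaryAbelian 2 A) (h1 : A₁ ≤ A) {a : G} (ha : a ∈ A) :
    A ≤ 𝐍(sepTheta A₁ a) :=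
  CL.le_normalizer_sup (CL.le_normalizer_commutator (le_norm_core hA ha)
    (le_norm_of_le_cent (le_cent_of_le_abelian hA.1 le_rfl h1)))
    (CL.le_normalizer_inf (le_norm_core hA ha)
      ((le_cent_of_le_abelian hA.1 le_rfl h1).trans (le_normalizer_opOf 2 _)))

theorem core_inf_le_local (a c : G) : opOf p 𝐂₁(a) ⊓ 𝐂₁(c) ≤ opOf p (𝐂₁(c) ⊓ 𝐂(zpowers a)) := by
  rw [cent_zpowers]; exact opOf_inf_le_local

theorem comm_core_le (hA : IsElementaryAbelian 2 A) (hsup : A₁ ⊔ A₂ = A) (h4 : #|A₁| = 4)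
    (hsep : ∀ c ∈ A, c ≠ 1 → ∀ E, IsPComponentOf 2 E 𝐂₁(c) → A₁ ≤ cbar 2 E ∨ A₂ ≤ cbar 2 E)
    {a c : G} (ha : a ∈ A) (hc : c ∈ A₁) (hc1 : c ≠ 1) :
    ⁅opOf 2 𝐂₁(a) ⊓ 𝐂₁(c), A₁⁆ ≤ opOf 2 𝐂₁(c) := by
  have h1 : A₁ ≤ A := hsup ▸ le_sup_left
  have h2 : A₂ ≤ A := hsup ▸ le_sup_right
  have hP : IsPGroup 2 (zpowers a) := (CL.Th.elemAb_isPGroup hA).to_le (zpowers_le.2 ha)
  have hPH : zpowers a ≤ 𝐂₁(c) :=
    (zpowers_le.2 ha).trans ((le_cent_of_abelian hA.1).trans (cent_le_cent1 (h1 hc)))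
  have hn : A ≤ 𝐍(opOf 2 𝐂₁(a) ⊓ 𝐂₁(c)) :=
    CL.le_normalizer_inf (le_norm_core hA ha) (le_norm_cent1 hA (h1 hc))
  have hle := CL.MSS.commutator_le_left_of_normalizes (h1.trans hn)
  refine le_opOf_of_le_cbar hP hPH (hle.trans (core_inf_le_local a c)) fun E hE => ?_
  have hT : opOf 2 𝐂₁(a) ⊓ 𝐂₁(c) ≤ 𝐍(cbar 2 E) :=
    ((core_inf_le_local a c).trans (opOf_local_le_norm hE hP hPH)).trans
      normalizer_le_normalizer_cbar
  have key : ∀ {B : Subgroup G}, B ≤ cbar 2 E → ⁅opOf 2 𝐂₁(a) ⊓ 𝐂₁(c), B⁆ ≤ cbar 2 E := fun hB =>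
    (commutator_mono le_rfl hB).trans (CL.MSS.commutator_le_right_of_normalizes hT)
  rcases hsep c (h1 hc) hc1 E hE with h | h
  · exact key h
  have hcE : c ∈ cbar 2 E := centralizer_le_cbar (le_cent1_iff.1 hE.le)
  obtain ⟨a₁, ha₁, a₂, ha₂, e⟩ := (CL.mem_sup_of_le_normalizer (H := A₁) (K := A₂)
    (le_norm_of_le_cent (le_cent_of_le_abelian hA.1 h1 h2))).1 (hsup ▸ ha)
  by_cases hm : a₁ ∈ zpowers c
  · refine hle.trans ((core_inf_le_local a c).trans (opOf_local_le_cbar hE hP hPH ?_))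
    rw [zpowers_le, ← e]
    exact mul_mem (zpowers_le.2 hcE hm) (h ha₂)
  · have hrel : (zpowers c).relIndex A₁ = 2 := by
      have := CL.card_mul_relIndex_of_le (zpowers_le.2 hc)
      rw [Nat.card_zpowers, orderOf_of_isElementaryAbelian hA (h1 hc) hc1, h4] at this
      omega
    have hgen := sup_eq_of_hyperplane (zpowers_le.2 hc) hrel (zpowers_le.2 ha₁)
      (fun h => hm (zpowers_le.1 h))
    have hA₁ : A₁ ≤ A₂ ⊔ (A ⊓ 𝐂(opOf 2 𝐂₁(a) ⊓ 𝐂₁(c))) := by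
      rw [← hgen]
      refine sup_le (zpowers_le.2 ?_) (zpowers_le.2 (mem_sup_right (mem_inf.2
        ⟨h1 hc, le_cent1_iff.1 inf_le_right⟩)))
      rw [eq_mul_inv_of_mul_eq e]
      exact mul_mem (mem_sup_right (mem_inf.2
        ⟨ha, le_cent1_iff.1 (inf_le_left.trans (opOf_le 2 _))⟩)) (mem_sup_left (inv_mem ha₂))
    rw [commutator_comm]
    refine (CL.commutator_le_of_mul_centralizer (S := A₂) fun x hx => ?_).trans ?_
    · obtain ⟨y, hy, z, hz, rfl⟩ := (CL.mem_sup_of_le_normalizer' (H := A₂)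
        (le_norm_of_le_cent (le_cent_of_le_abelian hA.1 inf_le_left h2))).1 (hA₁ hx)
      exact ⟨y, hy, z, (mem_inf.1 hz).2, rfl⟩
    · rw [commutator_comm]; exact key h

theorem sepTheta_inf_cent_le (hA : IsElementaryAbelian 2 A) (hsup : A₁ ⊔ A₂ = A) (h4 : #|A₁| = 4)
    (hsep : ∀ c ∈ A, c ≠ 1 → ∀ E, IsPComponentOf 2 E 𝐂₁(c) → A₁ ≤ cbar 2 E ∨ A₂ ≤ cbar 2 E)
    {a : G} (ha : a ∈ A) : sepTheta A₁ a ⊓ 𝐂(A₁) ≤ opOf 2 𝐂(A₁) := by
  have h1 : A₁ ≤ A := hsup ▸ le_sup_left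
  have hd : ¬ 2 ∣ #|opOf 2 𝐂₁(a)| := coprime_card_iff_not_dvd.1 (opOf_coprime 2 _)
  rw [sepTheta, sup_comm, CL.sup_inf_assoc_of_le_of_le_normalizer
    (inf_le_right.trans (opOf_le 2 _)) (Or.inl (inf_le_left.trans (comm_norm_left _ _)))]
  refine sup_le inf_le_right (comm_inf_cent_le_of_hyperplane (isElementaryAbelian_of_le hA h1)
    (ne_bot_of_pow_le (p := 2) (k := 2) (by norm_num) (by rw [h4]; norm_num))
    (h1.trans (le_norm_core hA ha)) hd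
    (Cfsg.Agent.S0205.result (Nat.odd_iff.2 (Nat.two_dvd_ne_zero.1 hd))) fun B hB hBp => ?_)
  obtain ⟨⟨c, hc⟩, hc1⟩ := ne_bot_iff_exists_ne_one.1 (ne_bot_of_pow_le (p := 2) le_rfl
    (card_hyperplane_ge (k := 1) hB hBp (by norm_num) (by rw [h4]; norm_num)))
  refine (inf_le_inf_right _ ((commutator_mono (inf_le_inf_left _ (cent_le_cent1 hc)) le_rfl).trans
    (comm_core_le hA hsup h4 hsep ha (hB hc) fun e => hc1 (Subtype.ext e)))).trans ?_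
  exact inf_le_opOf ((cent_le_cent1 (hB hc)).trans (le_normalizer_opOf 2 _)) (opOf_coprime 2 _)

theorem sep_decomp (hA : IsElementaryAbelian 2 A) (hsup : A₁ ⊔ A₂ = A) (h4 : #|A₁| = 4)
    (hsep : ∀ c ∈ A, c ≠ 1 → ∀ E, IsPComponentOf 2 E 𝐂₁(c) → A₁ ≤ cbar 2 E ∨ A₂ ≤ cbar 2 E)
    {a : G} (ha : a ∈ A) {Y : Subgroup G} (hY : Y ≤ sepTheta A₁ a) (hAY : A ≤ 𝐍(Y)) :
    Y ≤ ⁅Y, A₁⁆ ⊔ (Y ⊓ opOf 2 𝐂(A₁)) := by
  have h1 : A₁ ≤ A := hsup ▸ le_sup_left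
  have hA₁ := isElementaryAbelian_of_le hA h1
  exact (eq_comm_sup_cent (h1.trans hAY) (coprime_of_elemAb hA₁ (coprime_card_iff_not_dvd.1
    (coprime_card_of_le (hY.trans (sepTheta_le hA h1 ha)) (opOf_coprime 2 _))))
    (solvable_of_abelian hA₁.1)).trans (sup_le_sup_left (le_inf inf_le_left
      ((inf_le_inf_right _ hY).trans (sepTheta_inf_cent_le hA hsup h4 hsep ha))) _)

theorem sep_le_cbar (hA : IsElementaryAbelian 2 A) (hsup : A₁ ⊔ A₂ = A) (h4 : #|A₁| = 4)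
    (hsep : ∀ c ∈ A, c ≠ 1 → ∀ E, IsPComponentOf 2 E 𝐂₁(c) → A₁ ≤ cbar 2 E ∨ A₂ ≤ cbar 2 E)
    {a b : G} (ha : a ∈ A) (hb : b ∈ A) {Y : Subgroup G} (hY : Y ≤ sepTheta A₁ a)
    (hYb : Y ≤ 𝐂₁(b)) (hAY : A ≤ 𝐍(Y)) (hE : IsPComponentOf 2 E 𝐂₁(b)) (h : A₁ ≤ cbar 2 E) :
    Y ≤ cbar 2 E := by
  have h1 : A₁ ≤ A := hsup ▸ le_sup_left
  have hAb : A ≤ 𝐂₁(b) := (le_cent_of_abelian hA.1).trans (cent_le_cent1 hb)
  have hA2 := CL.Th.elemAb_isPGroup hA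
  have hT : Y ≤ 𝐍(cbar 2 E) :=
    (((le_inf (hY.trans (sepTheta_le hA h1 ha)) hYb).trans (core_inf_le_local a b)).trans
      (opOf_local_le_norm hE (hA2.to_le (zpowers_le.2 ha)) ((zpowers_le.2 ha).trans hAb))).trans
      normalizer_le_normalizer_cbar
  refine (sep_decomp hA hsup h4 hsep ha hY hAY).trans (sup_le
    ((commutator_mono le_rfl h).trans (CL.MSS.commutator_le_right_of_normalizes hT)) ?_)
  exact ((le_inf inf_le_right (inf_le_left.trans hYb)).trans opOf_inf_le_local).trans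
    (opOf_local_le_cbar hE (hA2.to_le h1) (h1.trans hAb) h)

theorem isSignalizerFunctor_sep (hA : IsElementaryAbelian 2 A) (hsup : A₁ ⊔ A₂ = A)
    (h4 : #|A₁| = 4) (h4' : #|A₂| = 4)
    (hsep : ∀ c ∈ A, c ≠ 1 → ∀ E, IsPComponentOf 2 E 𝐂₁(c) → A₁ ≤ cbar 2 E ∨ A₂ ≤ cbar 2 E) :
    IsSignalizerFunctor 2 A fun a => sepTheta A₁ a ⊓ sepTheta A₂ a := by
  have h1 : A₁ ≤ A := hsup ▸ le_sup_left
  have h2 : A₂ ≤ A := hsup ▸ le_sup_right
  have hsup' : A₂ ⊔ A₁ = A := sup_comm A₂ A₁ ▸ hsup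
  have hsep' : ∀ c ∈ A, c ≠ 1 → ∀ E, IsPComponentOf 2 E 𝐂₁(c) → A₂ ≤ cbar 2 E ∨ A₁ ≤ cbar 2 E :=
    fun c hc hc1 E hE => (hsep c hc hc1 E hE).symm
  have hn : ∀ a ∈ A, A ≤ 𝐍(sepTheta A₁ a ⊓ sepTheta A₂ a) := fun a ha =>
    CL.le_normalizer_inf (le_norm_sepTheta hA h1 ha) (le_norm_sepTheta hA h2 ha)
  refine ⟨fun a ha _ => inf_le_left.trans ((sepTheta_le hA h1 ha).trans (opOf_le 2 _)),
    fun a ha _ => coprime_card_iff_not_dvd.1 (coprime_card_of_le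
      (inf_le_left.trans (sepTheta_le hA h1 ha)) (opOf_coprime 2 _)),
    fun a ha _ b hb x hx => (mem_normalizer_iff.1 (hn a ha hb) x).1 hx,
    fun a ha _ b hb hb1 => ?_⟩
  have hAY : A ≤ 𝐍(sepTheta A₁ a ⊓ sepTheta A₂ a ⊓ 𝐂₁(b)) :=
    CL.le_normalizer_inf (hn a ha) (le_norm_cent1 hA hb)
  have hY1 : sepTheta A₁ a ⊓ sepTheta A₂ a ⊓ 𝐂₁(b) ≤ sepTheta A₁ a := inf_le_left.trans inf_le_left
  have hY2 : sepTheta A₁ a ⊓ sepTheta A₂ a ⊓ 𝐂₁(b) ≤ sepTheta A₂ a := inf_le_left.trans inf_le_right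
  have hY : sepTheta A₁ a ⊓ sepTheta A₂ a ⊓ 𝐂₁(b) ≤ opOf 2 𝐂₁(b) := by
    refine le_opOf_of_le_cbar ((CL.Th.elemAb_isPGroup hA).to_le (zpowers_le.2 ha))
      ((zpowers_le.2 ha).trans ((le_cent_of_abelian hA.1).trans (cent_le_cent1 hb)))
      ((le_inf (hY1.trans (sepTheta_le hA h1 ha)) inf_le_right).trans (core_inf_le_local a b))
      fun E hE => ?_
    rcases hsep b hb hb1 E hE with h | h
    · exact sep_le_cbar hA hsup h4 hsep ha hb hY1 inf_le_right hAY hE h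
    · exact sep_le_cbar hA hsup' h4' hsep' ha hb hY2 inf_le_right hAY hE h
  exact le_inf ((sep_decomp hA hsup h4 hsep ha hY1 hAY).trans
      (sup_le_sup (commutator_mono hY le_rfl) (inf_le_inf_right _ hY)))
    ((sep_decomp hA hsup' h4' hsep' ha hY2 hAY).trans
      (sup_le_sup (commutator_mono hY le_rfl) (inf_le_inf_right _ hY)))

end Sep

end CL.GG
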